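import Cfsg.Agent.H865.L5.Nrm
import Cfsg.Agent.H887.L5.Transport
import Cfsg.Agent.S1065

/-!
# `T5` is the dual of `F₅⁴`, the order of `GT k` (helper865, S5923, pieces A1, A2, A5, A7)
-/

set_option autoImplicit false
set_option linter.unusedSectionVars false

namespace Cfsg.Agent.H865.L5

open CoxeterSystem Subgroup Cfsg Cfsg.Lie Cfsg.Lie.ChevalleyDatum
open Cfsg.Agent.ChevalleyStructure Cfsg.Agent.ChevalleyStructure.Elts Cfsg.Agent.ChevalleyStructure.CoxeterGeom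
  Cfsg.Agent.ChevalleyStructure.CoxeterGeomTypes Cfsg.Agent.ChevalleyStructure.NPerm
open Cfsg.Agent.Tits.Roots Cfsg.Agent.Tits.Core Cfsg.Agent.Nodes Cfsg.Agent.Nodes.SubComb Cfsg.Agent.Nodes.Reps
  Cfsg.Agent.Nodes.BNOf Cfsg.Agent.Nodes.RGDChev Cfsg.Agent.Nodes.Bruhat Cfsg.Agent.Nodes.Coroot
open Cfsg.Agent.KFacts.RgdField Cfsg.Agent.KFacts.RgdChevCoord Cfsg.Agent.BpExc.TorCent Cfsg.Agent.BpExc.TorChev
open Cfsg.Agent.GpExc.Field Cfsg.Agent.BpExc.Tow Cfsg.Agent.BpExc.TowChev Cfsg.Agent.BpExc.Fr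
  Cfsg.Agent.BpExc.LangFr Cfsg.Agent.BpExc.FamField Cfsg.Agent.BpExc.FamInst Cfsg.Agent.H129.TorusChar
  Cfsg.Agent.H795.LangT Cfsg.Agent.BpExc.FamExt Cfsg.Agent.BpExc.FamUntw Cfsg.Agent.H378.TorDual Cfsg.Agent.H378.TorChar
  Cfsg.Agent.H378.TorFin Cfsg.Agent.H378.RankOne Cfsg.Agent.H378.RootTor Cfsg.Agent.H865.EE

attribute [local irreducible] w8

theorem exists_zeta3 (k : Type) [Field k] [CharP k 3] [IsAlgClosed k] : ∃ ζ : k, IsPrimitiveRoot ζ 5 := by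
  have : NeZero ((5 : ℕ) : k) := ⟨by
    intro h
    rw [CharP.cast_eq_zero_iff k 3] at h
    omega⟩
  obtain ⟨ζ, hζ⟩ := IsAlgClosed.exists_root (Polynomial.cyclotomic 5 k) (by
    rw [Polynomial.degree_cyclotomic]
    exact_mod_cast (Nat.totient_pos.2 (by norm_num)).ne')
  exact ⟨ζ, (Polynomial.isRoot_cyclotomic_iff).1 hζ⟩

section A

variable {k : Type} [Field k] [CharP k 3] [IsAlgClosed k] [PerfectRing k 3]

/-- A1 -/
theorem mem_T5 (hk : LocFin k) {t : ↥(chevE8.group k)} :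
    t ∈ T5 k ↔ t ∈ TT chevE8 k ∧ ∀ x, cX tp8 t (act w8 x) = cX tp8 t x ^ 2 :=
  ⟨fun h => ⟨h.1.1, fun x => Cfsg.Agent.H602.L5.T5_w8 hk h x⟩, fun h => Cfsg.Agent.H241.L5.mem_T5_of hk h.1 h.2⟩

theorem cX_T5_eq_of_PP (hk : LocFin k) {t : ↥(chevE8.group k)} (ht : t ∈ T5 k) {x y : Fin 8 → ℤ} (h : PP x = PP y) :
    cX tp8 t x = cX tp8 t y := by
  obtain ⟨z, hz⟩ := PP_eq_iff.1 h
  obtain ⟨hT, h1⟩ := (mem_T5 hk).1 ht
  have hm := isMC_cX tp8 hT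
  have h2 : x = y + (act w8 z - 2 • z) := by rw [← hz]; abel
  rw [h2, hm.add, sub_eq_add_neg, hm.add, hm.neg, hm.nsmul, h1, mul_inv_cancel₀ (pow_ne_zero _ (hm.ne_zero z)), mul_one]

theorem zvadd {ζ : k} (hζ : IsPrimitiveRoot ζ 5) (a b : ZMod 5) : ζ ^ (a + b).val = ζ ^ a.val * ζ ^ b.val := by
  rw [← pow_add]
  exact pow_eq_pow_of_modEq (by rw [ZMod.val_add]; exact Nat.mod_modEq _ _) hζ.pow_eq_one

theorem zvinj {ζ : k} (hζ : IsPrimitiveRoot ζ 5) {a b : ZMod 5} (h : ζ ^ a.val = ζ ^ b.val) : a = b :=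
  ZMod.val_injective 5 (hζ.pow_inj (ZMod.val_lt a) (ZMod.val_lt b) h)

theorem exists_T5 (hk : LocFin k) {ζ : k} (hζ : IsPrimitiveRoot ζ 5) (φ : (Fin 4 → ZMod 5) →+ ZMod 5) :
    ∃ t ∈ T5 k, ∀ x, cX tp8 t x = ζ ^ (φ (PP x)).val := by
  have hmc : IsMC (fun x : Fin 8 → ℤ => ζ ^ (φ (PP x)).val) :=
    { zero := by
        show ζ ^ (φ (PP 0)).val = 1
        rw [map_zero, map_zero, ZMod.val_zero, pow_zero]
      add := fun x y => by
        show ζ ^ (φ (PP (x + y))).val = _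
        rw [map_add, map_add, zvadd hζ] }
  obtain ⟨t, ht, h⟩ := exists_cX tp8 invC_E8 one_ne_zero hmc fun i => ⟨_, pow_one _⟩
  refine ⟨t, (mem_T5 hk).2 ⟨ht, fun x => ?_⟩, h⟩
  rw [h, h, PP_w8, map_nsmul, two_nsmul, zvadd hζ, sq]

/-- A2 : the dual space is `T5` -/
theorem exists_iso3 (hk : LocFin k) {ζ : k} (hζ : IsPrimitiveRoot ζ 5) :
    ∃ e : Module.Dual (ZMod 5) (Fin 4 → ZMod 5) → ↥(chevE8.group k), Function.Injective e ∧ Set.range e = T5 k ∧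
      (∀ φ ψ, e (φ + ψ) = e φ * e ψ) ∧ ∀ φ x, cX tp8 (e φ) x = ζ ^ (φ (PP x)).val := by
  have h1 : ∀ φ : Module.Dual (ZMod 5) (Fin 4 → ZMod 5), ∃ t ∈ T5 k, ∀ x, cX tp8 t x = ζ ^ (φ (PP x)).val :=
    fun φ => exists_T5 hk hζ φ.toAddMonoidHom
  choose f hf hc using h1
  have hinj : ∀ {s t : ↥(chevE8.group k)}, s ∈ TT chevE8 k → t ∈ TT chevE8 k → (∀ x, cX tp8 s x = cX tp8 t x) → s = t :=
    fun hs ht h => cX_inj tp8 hs ht fun i => h _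
  refine ⟨f, fun φ ψ h => ?_, ?_, fun φ ψ => ?_, hc⟩
  · have h2 : ∀ c, φ c = ψ c := fun c => by
      obtain ⟨x, rfl⟩ := PP_surj c
      apply zvinj hζ
      rw [← hc, ← hc, h]
    exact LinearMap.ext h2
  · apply Set.Subset.antisymm
    · rintro _ ⟨φ, rfl⟩
      exact hf φ
    · intro t ht
      have h1 : ∀ x, ∃ a : ZMod 5, cX tp8 t x = ζ ^ a.val := fun x => by
        obtain ⟨i, hi, h⟩ := hζ.eq_pow_of_pow_eq_one (Cfsg.Agent.H602.L5.cX_T5_pow hk ht x)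
        refine ⟨(i : ZMod 5), ?_⟩
        rw [ZMod.val_natCast, Nat.mod_eq_of_lt hi, h]
      choose g hg using h1
      have hgP : ∀ x y : Fin 8 → ℤ, PP x = PP y → g x = g y := fun x y h => by
        apply zvinj hζ
        rw [← hg, ← hg, cX_T5_eq_of_PP hk ht h]
      have hm := isMC_cX tp8 ht.1.1
      have hga : ∀ x y : Fin 8 → ℤ, g (x + y) = g x + g y := fun x y => by
        apply zvinj hζ
        rw [← hg, hm.add, hg, hg, zvadd hζ]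
      choose s hs using PP_surj
      let φ0 : (Fin 4 → ZMod 5) →+ ZMod 5 := AddMonoidHom.mk' (fun c => g (s c)) (fun a b => by
        rw [← hga]
        exact hgP _ _ (by rw [hs, map_add, hs, hs]))
      have hφ : ∀ x, φ0 (PP x) = g x := fun x => hgP _ _ (hs _)
      refine ⟨φ0.toZModLinearMap 5, hinj (hf _).1.1 ht.1.1 fun x => ?_⟩
      rw [hc, AddMonoidHom.coe_toZModLinearMap, hφ, hg]
  · refine hinj (hf _).1.1 (mul_mem (hf _).1.1 (hf _).1.1) fun x => ?_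
    rw [cX_mul tp8 (hf _).1.1 (hf _).1.1, hc, hc, hc, LinearMap.add_apply, zvadd hζ]

theorem card_T5 (hk : LocFin k) : Nat.card ↥(T5 k) = 625 := by
  obtain ⟨ζ, hζ⟩ := exists_zeta3 k
  obtain ⟨e, hi, he, -, -⟩ := exists_iso3 hk hζ
  rw [← he, Nat.card_congr (Equiv.ofInjective e hi).symm, Module.natCard_eq_pow_finrank (K := ZMod 5),
    Subspace.dual_finrank_eq, Module.finrank_fin_fun, Nat.card_eq_fintype_card, ZMod.card]
  norm_num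

theorem cent_T5 (hk : LocFin k) {y : ↥(chevE8.group k)} (h : ∀ t ∈ T5 k, y * t = t * y) : y ∈ TT chevE8 k := by
  obtain ⟨ζ, hζ⟩ := exists_zeta3 k
  obtain ⟨e, -, he, -, hch⟩ := exists_iso3 hk hζ
  exact cent_T5_of hk hζ he hch h

/-- A5 -/
theorem norm_T5 (hk : LocFin k) {y : ↥(chevE8.group k)} (hy : y ∈ GT k) (h : ∀ t ∈ T5 k, y * t * y⁻¹ ∈ T5 k) :
    ∃ v ∈ CW, Rp cs8 (nsysL tp8 cs8 hk 3) v y := by
  obtain ⟨ζ, hζ⟩ := exists_zeta3 k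
  obtain ⟨e, -, he, -, hch⟩ := exists_iso3 hk hζ
  exact norm_T5_of hk hζ he hch hy h

theorem cw_of_rp (hk : LocFin k) {y : ↥(chevE8.group k)} (hy : y ∈ GT k) {w : W8}
    (h : Rp cs8 (nsysL tp8 cs8 hk 3) w y) : w ∈ CW := Cfsg.Agent.H602.L5.cw_of_rp hk hy h

/-- A7 -/
theorem finite_GT : Finite ↥(GT k) := by
  obtain ⟨e⟩ := Cfsg.Agent.H887.L5.equiv_GT k
  exact Finite.of_equiv G3 e.toEquiv

theorem not_dvd_GT : ¬ 5 ^ 6 ∣ Nat.card ↥(GT k) := by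
  obtain ⟨e⟩ := Cfsg.Agent.H887.L5.equiv_GT k
  rw [← Nat.card_congr e.toEquiv, Cfsg.Agent.S1065.result (F := ZMod 3) (ZMod.card 3)]
  norm_num

end A

end Cfsg.Agent.H865.L5
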