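import Cfsg.Agent.H858.L5.SlA

/-!
# Centralizer (helper865, S5923, piece F)
-/

set_option autoImplicit false
set_option linter.unusedSectionVars false

namespace Cfsg.Agent.H865.L5

open Subgroup Cfsg Cfsg.Lie Cfsg.Agent.H858.L5

theorem center_aux : ∀ b : ZMod 5, us 0 b 0 * vm 0 1 = vm 0 1 * us 0 b 0 → us 0 b 0 = 1 := by decide

theorem cent_eq {f : SL35 →* G3} (h : GoodIn ⊤ f) (hf : Function.Injective f) :
    Subgroup.centralizer (f.range : Set G3) = ⊥ := by
  rw [eq_bot_iff]
  intro y hy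
  have h1 : ∀ s, y * f s = f s * y := fun s => (Subgroup.mem_centralizer_iff.1 hy (f s) ⟨s, rfl⟩).symm
  obtain ⟨s, hs, rfl⟩ := h.centS y (Subgroup.mem_top y) fun s _ => h1 s
  have h2 : ∀ x, s * x = x * s := fun x => hf (by rw [map_mul, map_mul]; exact h1 x)
  obtain ⟨b, rfl⟩ := cent_US fun x _ => h2 x
  rw [Subgroup.mem_bot, center_aux b (h2 _), map_one]

/-- the automorphism induced by an element of the normalizer -/
theorem exists_aut {G : Type*} [Group G] {f : SL35 →* G} (hf : Function.Injective f) {τ : G}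
    (hτ : τ ∈ Subgroup.normalizer (f.range : Set G)) : ∃ α : SL35 ≃* SL35, ∀ x, f (α x) = τ * f x * τ⁻¹ := by
  have h1 : ∀ x, ∃ y, f y = τ * f x * τ⁻¹ := fun x => (Subgroup.mem_normalizer_iff.1 hτ (f x)).1 ⟨x, rfl⟩
  have h2 : ∀ x, ∃ y, f y = τ⁻¹ * f x * τ := fun x => by
    have := (Subgroup.mem_normalizer_iff.1 (inv_mem hτ) (f x)).1 ⟨x, rfl⟩
    rwa [inv_inv] at this
  choose a ha using h1
  choose b hb using h2
  exact ⟨{ toFun := a
           invFun := b
           left_inv := fun x => hf (by rw [hb, ha]; group)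
           right_inv := fun x => hf (by rw [ha, hb]; group)
           map_mul' := fun x y => hf (by rw [ha, map_mul, map_mul, ha, ha]; group) }, ha⟩

end Cfsg.Agent.H865.L5
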