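import Cfsg.Agent.H865.L5.Cent
import Cfsg.Agent.H858.L5.SlB
import Cfsg.Agent.H947.L5.JJ
import Cfsg.Agent.H969.L5.InvNe

/-!
# Normalizer (helper865, S5923, piece F)
-/

set_option autoImplicit false
set_option linter.unusedSectionVars false

namespace Cfsg.Agent.H865.L5

open Subgroup Cfsg Cfsg.Lie
open Cfsg.Agent.H858.L5 (aut_SL)
open Cfsg.Agent.H947.L5 (dim_graph)
open Cfsg.Agent.H969.L5 (inv_ne)

theorem norm_eq {f : SL35 →* G3} (h : GoodIn ⊤ f) (hf : Function.Injective f) :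
    Subgroup.normalizer (f.range : Set G3) = f.range := by
  refine le_antisymm (fun τ hτ => ?_) Subgroup.le_normalizer
  obtain ⟨α, hα⟩ := exists_aut hf hτ
  have hone : ∀ y : G3, (∀ x, y * f x * y⁻¹ = f x) → y = 1 := by
    intro y hy
    have : y ∈ Subgroup.centralizer (f.range : Set G3) := by
      rw [Subgroup.mem_centralizer_iff]
      rintro _ ⟨x, rfl⟩
      have := hy x
      rw [mul_inv_eq_iff_eq_mul] at this
      exact this.symm
    rwa [cent_eq h hf, Subgroup.mem_bot] at this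
  rcases aut_SL α with ⟨x, hx⟩ | ⟨x, hx⟩
  · have h1 : (f x)⁻¹ * τ = 1 := hone _ fun g => by
      have h2 := hα g
      rw [hx, map_mul, map_mul, map_inv] at h2
      calc (f x)⁻¹ * τ * f g * ((f x)⁻¹ * τ)⁻¹ = (f x)⁻¹ * (τ * f g * τ⁻¹) * f x := by group
        _ = (f x)⁻¹ * (f x * f g * (f x)⁻¹) * f x := by rw [h2]
        _ = f g := by group
    rw [inv_mul_eq_one] at h1
    exact ⟨x, h1⟩
  · exfalso
    have h1 : ∀ g, (f x)⁻¹ * τ * f g * ((f x)⁻¹ * τ)⁻¹ = f (io g) := by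
      intro g
      have h2 := hα g
      rw [hx, map_mul, map_mul, map_inv] at h2
      calc (f x)⁻¹ * τ * f g * ((f x)⁻¹ * τ)⁻¹ = (f x)⁻¹ * (τ * f g * τ⁻¹) * f x := by group
        _ = (f x)⁻¹ * (f x * f (io g) * (f x)⁻¹) * f x := by rw [h2]
        _ = f (io g) := by group
    have h2 : ((f x)⁻¹ * τ) * ((f x)⁻¹ * τ) = 1 := hone _ fun g => by
      calc (f x)⁻¹ * τ * ((f x)⁻¹ * τ) * f g * ((f x)⁻¹ * τ * ((f x)⁻¹ * τ))⁻¹
          = (f x)⁻¹ * τ * ((f x)⁻¹ * τ * f g * ((f x)⁻¹ * τ)⁻¹) * ((f x)⁻¹ * τ)⁻¹ := by group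
        _ = f g := by rw [h1, h1, io_io]
    exact inv_ne h2 (dim_graph h.toGood h2 h1)

end Cfsg.Agent.H865.L5
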