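import Cfsg.Agent.H865.L5.Reg
import Cfsg.Agent.H865.L5.Norm
import Cfsg.Agent.H857.L5.RegOf
import Cfsg.Agent.H887.L5.Transport

/-!
# Every `SL₃(5)` in `E₈(3)` is good (helper865, S5923, piece D)
-/

set_option autoImplicit false
set_option linter.unusedSectionVars false

namespace Cfsg.Agent.H865.L5

open Subgroup Cfsg Cfsg.Lie
open Cfsg.Agent.GpExc.Field Cfsg.Agent.BpExc.Tow Cfsg.Agent.BpExc.TowChev Cfsg.Agent.BpExc.Fr
  Cfsg.Agent.BpExc.LangFr Cfsg.Agent.BpExc.FamField Cfsg.Agent.BpExc.FamInst Cfsg.Agent.H129.TorusChar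
  Cfsg.Agent.H795.LangT Cfsg.Agent.BpExc.FamExt Cfsg.Agent.BpExc.FamUntw Cfsg.Agent.H378.TorDual Cfsg.Agent.H378.TorChar
  Cfsg.Agent.H378.TorFin Cfsg.Agent.H378.RankOne Cfsg.Agent.H378.RootTor Cfsg.Agent.H865.EE
open Cfsg.Agent.H858.L5 (exists_VM_VL io_VP)

/-- D1 -/
theorem exists_reg {k : Type} [Field k] [CharP k 3] [IsAlgClosed k] [PerfectRing k 3] (hk : LocFin k)
    (f : SL35 →* ↥(chevE8.group k)) (hf : Function.Injective f) (hr : ∀ x, f x ∈ GT k) :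
    (∃ g ∈ GT k, (∀ s ∈ VP, g * f s * g⁻¹ ∈ T5 k) ∧ Reg ((fun s => g * f s * g⁻¹) '' VP)) ∨
      (∃ g ∈ GT k, (∀ s ∈ VL, g * f s * g⁻¹ ∈ T5 k) ∧ Reg ((fun s => g * f s * g⁻¹) '' VL)) :=
  Cfsg.Agent.H857.L5.exists_reg_of (hk := hk)
    ⟨Cfsg.Agent.H858.L5.exists_US, Cfsg.Agent.H858.L5.exists_VL, Cfsg.Agent.H858.L5.six,
      fun _ _ hc hd => Cfsg.Agent.H858.L5.six_conj hc hd⟩
    ⟨exists_zeta3 k, fun _ hζ => exists_iso3 hk hζ, card_T5 hk, fun _ hy h => norm_T5 hk hy h, finite_GT, not_dvd_GT⟩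
    ⟨fun _ hu h5 h1 _ ha => Cfsg.Agent.H343.L5.sq_ne hu h5 h1 ha,
      fun _ hu h5 h1 _ _ hφ hψ h0 => Cfsg.Agent.H343.L5.fix_line hu h5 h1 hφ hψ h0⟩ f hf hr

/-- from `VL` to `VP` with `io` -/
theorem reg_io {k : Type} [Field k] [CharP k 3] [IsAlgClosed k] [PerfectRing k 3]
    {f : SL35 →* ↥(chevE8.group k)} (hr : ∀ x, f x ∈ GT k)
    (h : ∃ g ∈ GT k, (∀ s ∈ VL, g * f s * g⁻¹ ∈ T5 k) ∧ Reg ((fun s => g * f s * g⁻¹) '' VL)) :
    ∃ g ∈ GT k, (∀ s ∈ VP, g * (f.comp io.toMonoidHom) s * g⁻¹ ∈ T5 k) ∧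
      Reg ((fun s => g * (f.comp io.toMonoidHom) s * g⁻¹) '' VP) := by
  obtain ⟨g, hg, h1, h2⟩ := h
  obtain ⟨x, hx⟩ := exists_VM_VL
  have e : ∀ s, g * f x * (f.comp io.toMonoidHom) s * (g * f x)⁻¹ = g * f (x * io s * x⁻¹) * g⁻¹ := by
    intro s
    show g * f x * f (io s) * (g * f x)⁻¹ = _
    rw [map_mul, map_mul, map_inv]
    group
  refine ⟨g * f x, mul_mem hg (hr x), fun s hs => ?_, fun a ha => ?_⟩
  · rw [e]
    exact h1 _ ((hx _).1 (io_VP.2 hs))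
  · obtain ⟨_, ⟨t, ht, rfl⟩, hne⟩ := h2 a ha
    have h3 : x⁻¹ * t * x ∈ VM := (hx _).2 (by
      have : x * (x⁻¹ * t * x) * x⁻¹ = t := by group
      rwa [this])
    refine ⟨_, ⟨io (x⁻¹ * t * x), ?_, rfl⟩, ?_⟩
    · rw [← io_VP, io_io]; exact h3
    · show cX _ (g * f x * (f.comp io.toMonoidHom) (io (x⁻¹ * t * x)) * (g * f x)⁻¹) a ≠ 1
      rw [e, io_io]
      have : x * (x⁻¹ * t * x) * x⁻¹ = t := by group
      rwa [this]

theorem exists_goodIn {k : Type} [Field k] [CharP k 3] [IsAlgClosed k] [PerfectRing k 3] (hk : LocFin k)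
    (f : SL35 →* ↥(chevE8.group k)) (hf : Function.Injective f) (hr : ∀ x, f x ∈ GT k) :
    GoodIn (GT k) f ∨ GoodIn (GT k) (f.comp io.toMonoidHom) := by
  rcases exists_reg hk f hf hr with ⟨g, hg, h1, h2⟩ | h
  · exact Or.inl (goodIn_of_reg hk hf hr hg h1 h2)
  · obtain ⟨g, hg, h1, h2⟩ := reg_io hr h
    exact Or.inr (goodIn_of_reg hk (hf.comp io.injective) (fun x => hr _) hg h1 h2)

theorem range_io {G : Type*} [Group G] (f : SL35 →* G) : (f.comp io.toMonoidHom).range = f.range := by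
  ext y
  constructor
  · rintro ⟨x, rfl⟩
    exact ⟨io x, rfl⟩
  · rintro ⟨x, rfl⟩
    exact ⟨io x, congrArg f (io_io x)⟩

/-- every subgroup isomorphic to `SL₃(5)` is the range of a good homomorphism -/
theorem exists_good (f : SL35 →* G3) (hf : Function.Injective f) :
    ∃ f' : SL35 →* G3, Function.Injective f' ∧ GoodIn ⊤ f' ∧ f'.range = f.range := by
  rcases Cfsg.Agent.H887.L5.transport (fun k _ _ _ _ hk f => exists_goodIn hk f) f hf with h | h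
  · exact ⟨f, hf, h, rfl⟩
  · exact ⟨f.comp io.toMonoidHom, hf.comp io.injective, h, range_io f⟩

end Cfsg.Agent.H865.L5
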