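import Cfsg.Agent.H602.L5.U1

/-!
# Centralizers and normalizers of regular subsets of `T5` (helper865, S5923, pieces A4, A5)
-/

set_option autoImplicit false
set_option linter.unusedSectionVars false

namespace Cfsg.Agent.H865.L5

open CoxeterSystem Subgroup Cfsg Cfsg.Lie Cfsg.Lie.ChevalleyDatum
open Cfsg.Agent.ChevalleyStructure Cfsg.Agent.ChevalleyStructure.Elts Cfsg.Agent.ChevalleyStructure.CoxeterGeom
  Cfsg.Agent.ChevalleyStructure.CoxeterGeomTypes Cfsg.Agent.ChevalleyStructure.NPerm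
open Cfsg.Agent.Tits.Roots Cfsg.Agent.Tits.Core Cfsg.Agent.Nodes Cfsg.Agent.Nodes.SubComb Cfsg.Agent.Nodes.Reps
  Cfsg.Agent.Nodes.BNOf Cfsg.Agent.Nodes.RGDChev Cfsg.Agent.Nodes.Bruhat Cfsg.Agent.Nodes.Coroot
open Cfsg.Agent.KFacts.RgdField Cfsg.Agent.KFacts.RgdChevCoord Cfsg.Agent.BpExc.TorCent Cfsg.Agent.BpExc.TorChev
open Cfsg.Agent.GpExc.Field Cfsg.Agent.BpExc.Tow Cfsg.Agent.BpExc.TowChev Cfsg.Agent.BpExc.Fr
  Cfsg.Agent.BpExc.LangFr Cfsg.Agent.BpExc.FamField Cfsg.Agent.BpExc.FamInst Cfsg.Agent.H129.TorusChar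
  Cfsg.Agent.H795.LangT Cfsg.Agent.BpExc.FamExt Cfsg.Agent.BpExc.FamUntw Cfsg.Agent.H378.TorDual Cfsg.Agent.H378.TorChar
  Cfsg.Agent.H378.TorFin Cfsg.Agent.H378.RankOne Cfsg.Agent.H378.RootTor Cfsg.Agent.H865.EE

attribute [local irreducible] w8

section Nrm

variable {k : Type} [Field k] [CharP k 3] [IsAlgClosed k] [PerfectRing k 3]

/-- A4 : an element commuting with a regular subset of `T5` represents an element of the Weyl group -/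
theorem cent_reg (hk : LocFin k) {S : Set ↥(chevE8.group k)} (hS : S ⊆ T5 k) (hr : Reg S) {y : ↥(chevE8.group k)}
    (h : ∀ t ∈ S, y * t = t * y) : ∃ w : W8, Rp cs8 (nsysL tp8 cs8 hk 3) w y ∧
      ∀ t ∈ S, ∀ x, cX tp8 t (act w x) = cX tp8 t x := by
  choose s hs hsa using fun a : Cfsg.Agent.H241.L5.Ph8 => hr a.1 a.2
  obtain ⟨w, n, hn, -, hnc⟩ := Cfsg.Agent.H241.L5.exists_rp_conj hk (s := s) (t := s) (fun a => (hS (hs a)).1.1)
    (fun a => (hS (hs a)).1.1) (c := y) (fun a => h _ (hs a))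
  have e := hnc fun a ha => ⟨⟨a, ha⟩, hsa ⟨a, ha⟩⟩
  rw [e] at hn
  refine ⟨w, hn, fun t ht x => ?_⟩
  have h1 := cX_rp tp8 cs8 hk 3 hn (hS ht).1.1 x
  rwa [h t ht, mul_inv_cancel_right] at h1

/-- facts A1 and A2 on `T5` -/
theorem reg_T5_of {ζ : k} (hζ : IsPrimitiveRoot ζ 5) {e : Module.Dual (ZMod 5) (Fin 4 → ZMod 5) → ↥(chevE8.group k)}
    (he : Set.range e = T5 k) (hch : ∀ φ x, cX tp8 (e φ) x = ζ ^ (φ (PP x)).val) : Reg (T5 k) := by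
  intro a ha
  obtain ⟨j, hj⟩ := Function.ne_iff.1 (PP_ne_zero ha)
  let φ : Module.Dual (ZMod 5) (Fin 4 → ZMod 5) := LinearMap.proj j
  refine ⟨e φ, he ▸ ⟨φ, rfl⟩, fun h => hj ?_⟩
  rw [hch] at h
  have h1 := hζ.pow_inj (ZMod.val_lt (φ (PP a))) (by norm_num : 0 < 5) (by rw [h, pow_zero])
  exact (ZMod.val_eq_zero _).1 h1

theorem eq_one_of_comm_of (hk : LocFin k) {ζ : k} (hζ : IsPrimitiveRoot ζ 5)
    {e : Module.Dual (ZMod 5) (Fin 4 → ZMod 5) → ↥(chevE8.group k)}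
    (he : Set.range e = T5 k) (hch : ∀ φ x, cX tp8 (e φ) x = ζ ^ (φ (PP x)).val) {w : W8} {y : ↥(chevE8.group k)}
    (hw : Rp cs8 (nsysL tp8 cs8 hk 3) w y) (h : ∀ t ∈ T5 k, y * t = t * y) : w = 1 := by
  refine ChevalleyStructure.CoxeterGeom.eq_one_of_fix cs8 tp8.isCartan _ fun i => ?_
  have hr := isRoot_sr cs8 tp8.isCartan i
  refine PP_inj (rt_act hr w) hr ?_
  by_contra hne
  obtain ⟨j, hj⟩ := Function.ne_iff.1 hne
  let φ : Module.Dual (ZMod 5) (Fin 4 → ZMod 5) := LinearMap.proj j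
  have ht : e φ ∈ T5 k := he ▸ ⟨φ, rfl⟩
  have h2 := cX_rp tp8 cs8 hk 3 hw ht.1.1 (sr i)
  rw [h _ ht, mul_inv_cancel_right, hch, hch] at h2
  exact hj (ZMod.val_injective 5 (hζ.pow_inj (ZMod.val_lt _) (ZMod.val_lt _) h2))

theorem cent_T5_of (hk : LocFin k) {ζ : k} (hζ : IsPrimitiveRoot ζ 5)
    {e : Module.Dual (ZMod 5) (Fin 4 → ZMod 5) → ↥(chevE8.group k)}
    (he : Set.range e = T5 k) (hch : ∀ φ x, cX tp8 (e φ) x = ζ ^ (φ (PP x)).val) {y : ↥(chevE8.group k)}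
    (h : ∀ t ∈ T5 k, y * t = t * y) : y ∈ TT chevE8 k := by
  obtain ⟨w, hw, -⟩ := cent_reg hk (fun _ ht => ht) (reg_T5_of hζ he hch) h
  have e1 := eq_one_of_comm_of hk hζ he hch hw h
  rw [e1] at hw
  exact hw.mem_of_one

/-- A5 -/
theorem norm_T5_of (hk : LocFin k) {ζ : k} (hζ : IsPrimitiveRoot ζ 5)
    {e : Module.Dual (ZMod 5) (Fin 4 → ZMod 5) → ↥(chevE8.group k)}
    (he : Set.range e = T5 k) (hch : ∀ φ x, cX tp8 (e φ) x = ζ ^ (φ (PP x)).val) {y : ↥(chevE8.group k)}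
    (hy : y ∈ GT k) (h : ∀ t ∈ T5 k, y * t * y⁻¹ ∈ T5 k) : ∃ v ∈ CW, Rp cs8 (nsysL tp8 cs8 hk 3) v y := by
  have hfin : Finite ↥(T5 k) := by
    rw [← he]
    have : Finite (Module.Dual (ZMod 5) (Fin 4 → ZMod 5)) := Module.finite_of_finite (ZMod 5)
    exact (Set.finite_range e).to_subtype
  have hsurj : Function.Surjective (fun t : ↥(T5 k) => (⟨y * t.1 * y⁻¹, h t.1 t.2⟩ : ↥(T5 k))) := by
    apply Finite.injective_iff_surjective.1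
    intro s t hst
    exact Subtype.ext (mul_left_cancel (mul_right_cancel (congrArg Subtype.val hst)))
  have h1 : ∀ a : Cfsg.Agent.H241.L5.Ph8, ∃ s t : ↥(T5 k), y * s.1 = t.1 * y ∧ cX tp8 t.1 a.1 ≠ 1 := by
    intro a
    obtain ⟨t, ht, hne⟩ := reg_T5_of hζ he hch a.1 a.2
    obtain ⟨s, hs⟩ := hsurj ⟨t, ht⟩
    refine ⟨s, ⟨t, ht⟩, ?_, hne⟩
    rw [← congrArg Subtype.val hs]
    show y * s.1 = y * s.1 * y⁻¹ * y
    group
  choose s t hst hne using h1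
  obtain ⟨w, n, hn, -, hnc⟩ := Cfsg.Agent.H241.L5.exists_rp_conj hk (s := fun a => (s a).1) (t := fun a => (t a).1)
    (fun a => (s a).2.1.1) (fun a => (t a).2.1.1) (c := y) hst
  have e1 := hnc fun a ha => ⟨⟨a, ha⟩, hne ⟨a, ha⟩⟩
  rw [e1] at hn
  exact ⟨w, Cfsg.Agent.H602.L5.cw_of_rp hk hy hn, hn⟩

end Nrm

end Cfsg.Agent.H865.L5
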