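import Cfsg.Agent.H865.L5.GoodEx
import Cfsg.Agent.H513.L5.UniAbs
import Cfsg.Agent.H602.L5.U1F
import Cfsg.Agent.H969.L5.TorVL
import Cfsg.Agent.H305.L5.ConjW8
import Cfsg.Agent.H305.L5.U1
import Cfsg.Agent.H342.L5.RpGT

/-!
# Uniqueness of `SL₃(5)` in `E₈(3)` (helper865, S5924)
-/

set_option autoImplicit false
set_option linter.unusedSectionVars false

namespace Cfsg.Agent.H865.L5

open CoxeterSystem Subgroup Cfsg Cfsg.Lie Cfsg.Lie.ChevalleyDatum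
open Cfsg.Agent.ChevalleyStructure Cfsg.Agent.ChevalleyStructure.Elts Cfsg.Agent.ChevalleyStructure.CoxeterGeom
  Cfsg.Agent.ChevalleyStructure.CoxeterGeomTypes Cfsg.Agent.ChevalleyStructure.NPerm
open Cfsg.Agent.Tits.Roots Cfsg.Agent.Tits.Core Cfsg.Agent.Nodes Cfsg.Agent.Nodes.SubComb Cfsg.Agent.Nodes.Reps
  Cfsg.Agent.Nodes.BNOf Cfsg.Agent.Nodes.RGDChev Cfsg.Agent.Nodes.Bruhat Cfsg.Agent.Nodes.Coroot
open Cfsg.Agent.KFacts.RgdField Cfsg.Agent.KFacts.RgdChevCoord Cfsg.Agent.BpExc.TorCent Cfsg.Agent.BpExc.TorChev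
open Cfsg.Agent.GpExc.Field Cfsg.Agent.BpExc.Tow Cfsg.Agent.BpExc.TowChev Cfsg.Agent.BpExc.Fr
  Cfsg.Agent.BpExc.LangFr Cfsg.Agent.BpExc.FamField Cfsg.Agent.BpExc.FamInst Cfsg.Agent.H129.TorusChar
  Cfsg.Agent.H795.LangT Cfsg.Agent.BpExc.FamExt Cfsg.Agent.BpExc.FamUntw Cfsg.Agent.H378.TorDual Cfsg.Agent.H378.TorChar
  Cfsg.Agent.H378.TorFin Cfsg.Agent.H378.RankOne Cfsg.Agent.H378.RootTor Cfsg.Agent.H865.EE

open Cfsg.Agent.H602.L5 (AT_pow z0_AT card_AT2 uu_AT2)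
open Cfsg.Agent.H858.L5 (psl_equiv io_not_inner)
open Cfsg.Agent.H513.L5 (unique_abs)
open Cfsg.Agent.H887.L5 (exists_equiv)

section U

variable {k : Type} [Field k] [CharP k 3] [IsAlgClosed k] [PerfectRing k 3]

/-- T3 -/
theorem tor (hk : LocFin k) (f : SL35 →* ↥(chevE8.group k)) (hf : Function.Injective f) (hr : ∀ x, f x ∈ GT k)
    (h : ∀ s ∈ VP, f s ∈ T5 k) (hreg : Reg (f '' VP)) :
    ∃ g ∈ GT k, (∀ s ∈ VL, g * f s * g⁻¹ ∈ T5 k) ∧ Reg ((fun s => g * f s * g⁻¹) '' VL) := by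
  obtain ⟨ζ, hζ⟩ := exists_zeta3 k
  obtain ⟨e, -, he, -, hch⟩ := exists_iso3 hk hζ
  exact Cfsg.Agent.H241.L5.tor_of hk (fun h => Cfsg.Agent.H305.L5.conj_w8 h)
    (Cfsg.Agent.H969.L5.toral_VL hk f hf hr h hreg) (fun hu _ h => Cfsg.Agent.H343.L5.five_elt hu h)
    (fun hu h5 h1 _ _ hφ hψ h0 => Cfsg.Agent.H343.L5.fix_line hu h5 h1 hφ hψ h0) hζ he hch hf hr h hreg

theorem conj_VP (hk : LocFin k) {f f' : SL35 →* ↥(chevE8.group k)}
    (hf : Function.Injective f) (hT : ∀ s ∈ VP, f s ∈ T5 k) (hreg : Reg (f '' VP))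
    (hf' : Function.Injective f') (hT' : ∀ s ∈ VP, f' s ∈ T5 k) (hreg' : Reg (f' '' VP)) :
    ∃ g ∈ GT k, ∀ s ∈ VP, ∃ s' ∈ VP, f' s = g * f s' * g⁻¹ :=
  Cfsg.Agent.H305.L5.conj_VP_of hk (fun hv => Cfsg.Agent.H342.L5.exists_rp_GT hk hv) hf hT hreg hf' hT' hreg'

theorem cjf_inj (g : ↥(chevE8.group k)) {f : SL35 →* ↥(chevE8.group k)} (hf : Function.Injective f) :
    Function.Injective (cjf g f) := fun _ _ e => hf (mul_left_cancel (mul_right_cancel e))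

theorem cjf_mem {g : ↥(chevE8.group k)} (hg : g ∈ GT k) {f : SL35 →* ↥(chevE8.group k)} (hr : ∀ x, f x ∈ GT k) (x : SL35) :
    cjf g f x ∈ GT k := mul_mem (mul_mem hg (hr x)) (inv_mem hg)

/-- `VP` is always regular and toral. -/
theorem vp_reg (hk : LocFin k) (f : SL35 →* ↥(chevE8.group k)) (hf : Function.Injective f) (hr : ∀ x, f x ∈ GT k) :
    ∃ g ∈ GT k, (∀ s ∈ VP, cjf g f s ∈ T5 k) ∧ Reg (cjf g f '' VP) := by
  rcases exists_reg hk f hf hr with h | h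
  · exact h
  · obtain ⟨g, hg, h1, h2⟩ := reg_io hr h
    obtain ⟨g', hg', h3, h4⟩ := tor hk (cjf g (f.comp io.toMonoidHom)) (cjf_inj g (hf.comp io.injective))
      (cjf_mem hg fun x => hr _) h1 h2
    have e1 : ∀ s, g' * cjf g (f.comp io.toMonoidHom) s * g'⁻¹ = (g' * g) * (f.comp io.toMonoidHom) s * (g' * g)⁻¹ := by
      intro s
      rw [cjf_apply, mul_inv_rev]
      simp only [mul_assoc]
    obtain ⟨g2, hg2, h5, h6⟩ := reg_io (f := f.comp io.toMonoidHom) (fun x => hr _) ⟨g' * g, mul_mem hg' hg,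
      fun s hs => by rw [← e1]; exact h3 s hs, by
        have : (fun s => (g' * g) * (f.comp io.toMonoidHom) s * (g' * g)⁻¹) =
          fun s => g' * cjf g (f.comp io.toMonoidHom) s * g'⁻¹ := funext fun s => (e1 s).symm
        rw [this]; exact h4⟩
    have e2 : (f.comp io.toMonoidHom).comp io.toMonoidHom = f := MonoidHom.ext fun x => congrArg f (io_io x)
    rw [e2] at h5 h6
    exact ⟨g2, hg2, h5, h6⟩

/-- the homomorphism into `Y` -/
noncomputable abbrev up (f : SL35 →* ↥(GT k)) : SL35 →* ↥(chevE8.group k) := (GT k).subtype.comp f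

theorem up_inj {f : SL35 →* ↥(GT k)} (hf : Function.Injective f) : Function.Injective (up f) :=
  Subtype.val_injective.comp hf

theorem up_mem (f : SL35 →* ↥(GT k)) (x : SL35) : up f x ∈ GT k := (f x).2

theorem conj_comm {G : Type*} [Group G] {g a b : G} (h : a * b = b * a) :
    g * a * g⁻¹ * (g * b * g⁻¹) = g * b * g⁻¹ * (g * a * g⁻¹) := by
  calc g * a * g⁻¹ * (g * b * g⁻¹) = g * (a * b) * g⁻¹ := by group
    _ = g * (b * a) * g⁻¹ := by rw [h]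
    _ = _ := by group

theorem comm_conj {G : Type*} [Group G] {g a b : G} (h : g * a * g⁻¹ * (g * b * g⁻¹) = g * b * g⁻¹ * (g * a * g⁻¹)) :
    a * b = b * a := by
  have e1 : g * a * g⁻¹ * (g * b * g⁻¹) = g * (a * b) * g⁻¹ := by group
  have e2 : g * b * g⁻¹ * (g * a * g⁻¹) = g * (b * a) * g⁻¹ := by group
  rw [e1, e2] at h
  exact mul_left_cancel (mul_right_cancel h)

variable {f : SL35 →* ↥(GT k)}

/-- elements commuting with `f VP`, conjugated into `AT` -/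
theorem mem_AT_of (hk : LocFin k) (hf : Function.Injective f) {g : ↥(chevE8.group k)} (hg : g ∈ GT k)
    (hT : ∀ s ∈ VP, cjf g (up f) s ∈ T5 k) (hreg : Reg (cjf g (up f) '' VP)) {a : ↥(GT k)}
    (h : ∀ s ∈ VP, a * f s = f s * a) : g * (a : ↥(chevE8.group k)) * g⁻¹ ∈ AT k :=
  cent_VP_AT hk (cjf_inj g (up_inj hf)) hT hreg (mul_mem (mul_mem hg a.2) (inv_mem hg))
    fun s hs => conj_comm (congrArg Subtype.val (h s hs))

theorem comm_of_mem_AT {g : ↥(chevE8.group k)} (hT : ∀ s ∈ VP, cjf g (up f) s ∈ T5 k) {a : ↥(GT k)}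
    (h : g * (a : ↥(chevE8.group k)) * g⁻¹ ∈ AT k) : ∀ s ∈ VP, a * f s = f s * a := fun s hs =>
  Subtype.ext (comm_conj (TT_comm tp8 _ h.1 _ (T5_TT (hT s hs))))

theorem hc_GT (hk : LocFin k) (hf : Function.Injective f) (a : ↥(GT k)) (h : ∀ s ∈ VP, a * f s = f s * a) :
    a ^ 10 = 1 ∧ f z0 * a * (f z0)⁻¹ = a ^ 7 := by
  obtain ⟨g, hg, hT, hreg⟩ := vp_reg hk (up f) (up_inj hf) (up_mem f)
  have h1 := mem_AT_of hk hf hg hT hreg h
  constructor
  · have h2 := AT_pow hk h1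
    rw [conj_pow] at h2
    exact Subtype.ext (conj_eq_one_iff.1 h2)
  · have h2 := z0_AT hk (cjf_inj g (up_inj hf)) (cjf_mem hg (up_mem f)) hT hreg _ h1
    rw [conj_pow] at h2
    apply Subtype.ext
    have h3 : g * ((f z0 : ↥(chevE8.group k)) * (a : ↥(chevE8.group k)) * (f z0 : ↥(chevE8.group k))⁻¹) * g⁻¹ =
        g * (a : ↥(chevE8.group k)) ^ 7 * g⁻¹ := by
      rw [← h2]
      have e := cjf_apply g (up f) z0
      rw [e]
      show _ = g * (f z0 : ↥(chevE8.group k)) * g⁻¹ * (g * (a : ↥(chevE8.group k)) * g⁻¹) *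
        (g * (f z0 : ↥(chevE8.group k)) * g⁻¹)⁻¹
      simp only [mul_inv_rev, inv_inv, mul_assoc, inv_mul_cancel_left]
    exact mul_left_cancel (mul_right_cancel h3)

theorem hab_GT (hk : LocFin k) (hf : Function.Injective f) (a b : ↥(GT k)) (h : ∀ s ∈ VP, a * f s = f s * a)
    (h' : ∀ s ∈ VP, b * f s = f s * b) : a * b = b * a := by
  obtain ⟨g, hg, hT, hreg⟩ := vp_reg hk (up f) (up_inj hf) (up_mem f)
  exact Subtype.ext (comm_conj (TT_comm tp8 _ (mem_AT_of hk hf hg hT hreg h).1 _ (mem_AT_of hk hf hg hT hreg h').1))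

theorem h16_GT (hk : LocFin k) (hf : Function.Injective f) :
    Nat.card {a : ↥(GT k) // (∀ s ∈ VP, a * f s = f s * a) ∧ a ^ 2 = 1} = 16 := by
  obtain ⟨g, hg, hT, hreg⟩ := vp_reg hk (up f) (up_inj hf) (up_mem f)
  rw [← card_AT2 hk]
  refine Nat.card_eq_of_bijective (fun a => ⟨g * ((a.1 : ↥(GT k)) : ↥(chevE8.group k)) * g⁻¹,
    mem_AT_of hk hf hg hT hreg a.2.1, by
      rw [conj_pow, ← Subgroup.coe_pow, a.2.2, Subgroup.coe_one, mul_one, mul_inv_cancel]⟩) ⟨?_, ?_⟩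
  · intro a b e
    have e' := congrArg Subtype.val e
    exact Subtype.ext (Subtype.ext (mul_left_cancel (mul_right_cancel e')))
  · rintro ⟨t, ht, h2⟩
    have e : g * (g⁻¹ * t * g) * g⁻¹ = t := by group
    have hm : g⁻¹ * t * g ∈ GT k := mul_mem (mul_mem (inv_mem hg) ht.2) hg
    refine ⟨⟨⟨g⁻¹ * t * g, hm⟩, ?_, ?_⟩, ?_⟩
    · refine comm_of_mem_AT (g := g) hT ?_
      show g * (g⁻¹ * t * g) * g⁻¹ ∈ AT k
      rw [e]; exact ht
    · apply Subtype.ext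
      show (g⁻¹ * t * g) ^ 2 = 1
      have := conj_pow (i := 2) (a := g⁻¹) (b := t)
      rw [inv_inv] at this
      rw [this, h2, mul_one, inv_mul_cancel]
    · exact Subtype.ext e

theorem hu_GT (hk : LocFin k) (hf : Function.Injective f) (a : ↥(GT k)) (h : ∀ s ∈ VP, a * f s = f s * a)
    (hu : a * f (us 0 0 1) = f (us 0 0 1) * a) (h2 : a ^ 2 = 1) : a = 1 := by
  obtain ⟨g, hg, hT, hreg⟩ := vp_reg hk (up f) (up_inj hf) (up_mem f)
  have h3 := uu_AT2 hk (cjf_inj g (up_inj hf)) (cjf_mem hg (up_mem f)) hT hreg (mem_AT_of hk hf hg hT hreg h) (by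
    rw [conj_pow, ← Subgroup.coe_pow, h2, Subgroup.coe_one, mul_one, mul_inv_cancel])
    (conj_comm (congrArg Subtype.val hu))
  exact Subtype.ext (conj_eq_one_iff.1 h3)

theorem hS_GT (hk : LocFin k) (hf : Function.Injective f) (a : ↥(GT k)) (h : ∀ s ∈ US, a * f s = f s * a) :
    ∃ s ∈ US, a = f s := by
  obtain ⟨g, hg, hT, hreg⟩ := vp_reg hk (up f) (up_inj hf) (up_mem f)
  obtain ⟨s, hs, e⟩ := (goodIn_of_reg hk (up_inj hf) (up_mem f) hg hT hreg).centS a a.2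
    fun s hs => congrArg Subtype.val (h s hs)
  exact ⟨s, hs, Subtype.ext e⟩

theorem hV_GT (hk : LocFin k) {f f' : SL35 →* ↥(GT k)} (hf : Function.Injective f) (hf' : Function.Injective f') :
    ∃ g, ∀ s ∈ VP, ∃ s' ∈ VP, f' s = g * f s' * g⁻¹ := by
  obtain ⟨g, hg, hT, hreg⟩ := vp_reg hk (up f) (up_inj hf) (up_mem f)
  obtain ⟨g', hg', hT', hreg'⟩ := vp_reg hk (up f') (up_inj hf') (up_mem f')
  obtain ⟨y, hy, h⟩ := conj_VP hk (cjf_inj g (up_inj hf)) hT hreg (cjf_inj g' (up_inj hf')) hT' hreg'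
  refine ⟨⟨g'⁻¹ * y * g, mul_mem (mul_mem (inv_mem hg') hy) hg⟩, fun s hs => ?_⟩
  obtain ⟨s', hs', e⟩ := h s hs
  refine ⟨s', hs', Subtype.ext ?_⟩
  rw [cjf_apply, cjf_apply] at e
  show (f' s : ↥(chevE8.group k)) = g'⁻¹ * y * g * (f s' : ↥(chevE8.group k)) * (g'⁻¹ * y * g)⁻¹
  have e1 : (f' s : ↥(chevE8.group k)) = g'⁻¹ * (g' * (f' s : ↥(chevE8.group k)) * g'⁻¹) * g' := by group
  rw [e1]
  have e2 : g' * (f' s : ↥(chevE8.group k)) * g'⁻¹ = y * (g * (f s' : ↥(chevE8.group k)) * g⁻¹) * y⁻¹ := e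
  rw [e2]
  simp only [mul_inv_rev, inv_inv, mul_assoc]

end U

/-- EX -/
theorem not_graph {f : SL35 →* G3} (hf : Function.Injective f) : ¬ ∃ τ, ∀ x, τ * f x * τ⁻¹ = f (io x) := by
  rintro ⟨τ, hτ⟩
  obtain ⟨f', hf', hg, he⟩ := exists_good f hf
  have h1 : τ ∈ Subgroup.normalizer (f'.range : Set G3) := by
    rw [he, Subgroup.mem_normalizer_iff]
    intro y
    constructor
    · rintro ⟨x, rfl⟩
      exact ⟨io x, (hτ x).symm⟩
    · rintro ⟨x, e⟩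
      refine ⟨io x, ?_⟩
      have h2 := hτ (io x)
      rw [io_io, e] at h2
      exact mul_left_cancel (mul_right_cancel h2)
  rw [norm_eq hg hf', he] at h1
  obtain ⟨z, rfl⟩ := h1
  exact io_not_inner ⟨z, fun x => hf (by rw [← hτ, map_mul, map_mul, map_inv])⟩

theorem unique_G3 (f f' : SL35 →* G3) (hf : Function.Injective f) (hf' : Function.Injective f') :
    ∃ g, f'.range = f.range.map (MulAut.conj g).toMonoidHom := by
  obtain ⟨k, _, _, _, _, hk, ⟨e⟩⟩ := exists_equiv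
  obtain ⟨g, hg⟩ := unique_abs (Γ := ↥(GT k)) (fun f hf a h => hc_GT hk hf a h) (fun f hf a b h h' => hab_GT hk hf a b h h')
    (fun f hf => h16_GT hk hf) (fun f hf a h hu h2 => hu_GT hk hf a h hu h2) (fun f hf a h => hS_GT hk hf a h)
    (fun f f' hf hf' => hV_GT hk hf hf') (fun f hf => by
      rintro ⟨τ, hτ⟩
      refine not_graph (f := e.symm.toMonoidHom.comp f) (e.symm.injective.comp hf) ⟨e.symm τ, fun x => ?_⟩
      show e.symm τ * e.symm (f x) * (e.symm τ)⁻¹ = e.symm (f (io x))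
      rw [← hτ, map_mul, map_mul, map_inv])
    (e.toMonoidHom.comp f) (e.toMonoidHom.comp f') (e.injective.comp hf) (e.injective.comp hf')
  refine ⟨e.symm g, ?_⟩
  ext y
  have h1 : y ∈ f'.range ↔ e y ∈ (e.toMonoidHom.comp f').range := by
    constructor
    · rintro ⟨x, rfl⟩
      exact ⟨x, rfl⟩
    · rintro ⟨x, hx⟩
      exact ⟨x, e.injective hx⟩
  rw [h1, hg]
  constructor
  · rintro ⟨_, ⟨x, rfl⟩, hx⟩
    refine ⟨f x, ⟨x, rfl⟩, e.injective ?_⟩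
    rw [← hx]
    show e (e.symm g * f x * (e.symm g)⁻¹) = g * e (f x) * g⁻¹
    rw [map_mul, map_mul, map_inv, e.apply_symm_apply]
  · rintro ⟨_, ⟨x, rfl⟩, rfl⟩
    refine ⟨e (f x), ⟨x, rfl⟩, ?_⟩
    show g * e (f x) * g⁻¹ = e (e.symm g * f x * (e.symm g)⁻¹)
    rw [map_mul, map_mul, map_inv, e.apply_symm_apply]

end Cfsg.Agent.H865.L5
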